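import Mathlib
import Cfsg.Agent.H486.HgBase
import Cfsg.Agent.H999.HgSplitA
import Cfsg.Agent.Ree.ReducePSL
import Cfsg.Agent.ClassicalGeometry.PSL2Basic

/-!
# Task 519 for S3924 (helper486): a homogeneous group with a characteristic subgroup `SL₂(5)`, `PSL₂(5)` or `PSL₂(7)`

Main result: `split`.
-/

set_option autoImplicit false

namespace Cfsg.Agent.H999.HgSplit

open Subgroup

/-- in a homogeneous group elements of the same order are conjugate under `Aut G` -/
theorem exists_aut {G : Type*} [Group G] [Finite G] (hH : Cfsg.Agent.H486.Hg.Homog G) (x y : G)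
    (h : orderOf x = orderOf y) : ∃ φ : MulAut G, φ x = y := by
  have hx : ∀ w : zpowers x, w ∈ zpowers (⟨x, mem_zpowers x⟩ : zpowers x) := by
    rintro ⟨w, k, rfl⟩
    exact ⟨k, Subtype.ext rfl⟩
  have hy : ∀ w : zpowers y, w ∈ zpowers (⟨y, mem_zpowers y⟩ : zpowers y) := by
    rintro ⟨w, k, rfl⟩
    exact ⟨k, Subtype.ext rfl⟩
  have ho : orderOf (⟨x, mem_zpowers x⟩ : zpowers x) = orderOf (⟨y, mem_zpowers y⟩ : zpowers y) := by
    rw [Subgroup.orderOf_mk, Subgroup.orderOf_mk, h]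
  obtain ⟨φ, hφ⟩ := hH (zpowers x) (zpowers y) (mulEquivOfOrderOfEq hx hy ho)
  refine ⟨φ, ?_⟩
  have h1 := hφ ⟨x, mem_zpowers x⟩
  rw [mulEquivOfOrderOfEq_apply_gen] at h1
  exact h1

theorem gen {G : Type*} [Group G] [Finite G]
    (ho : ∀ x y : G, orderOf x = orderOf y → ∃ φ : MulAut G, φ x = y)
    (K : Subgroup G) (hKc : K.Characteristic) (z : G) (hzK : z ∈ K) (hz2 : z ^ 2 = 1)
    (hcen : ∀ x ∈ K, (∀ y ∈ K, x * y = y * x) ↔ (x = 1 ∨ x = z))
    (h2 : ∃ x ∈ K, orderOf x = 2) (h4 : z ≠ 1 → ∃ x ∈ K, orderOf x = 4)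
    (hS : ∀ g : G, ∃ k ∈ K, ∀ y ∈ K, (g * k) ^ 2 * y = y * (g * k) ^ 2) :
    ∃ H : Subgroup G, H.Characteristic ∧ H ⊓ K = ⊥ ∧ H ⊔ K = ⊤ ∧
      (Nat.card H).Coprime (Nat.card K) ∧ Odd (Nat.card H) := by
  have hmem : ∀ x ∈ K, ∀ y, orderOf y = orderOf x → y ∈ K := by
    intro x hx y hy
    obtain ⟨φ, hφ⟩ := ho x y hy.symm
    rw [← hφ, ← SetLike.mem_coe]
    have h := (Subgroup.characteristic_iff_map_eq.1 hKc) φ
    rw [← h]
    exact ⟨x, hx, rfl⟩
  set e := orderOf z with he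
  have he2 : e ∣ 2 := orderOf_dvd_of_pow_eq_one hz2
  have he12 : e = 1 ∨ e = 2 := (Nat.dvd_prime Nat.prime_two).1 he2
  have hsmall : ∀ x : G, x ^ (2 * e) = 1 → x ∈ K := by
    intro x hx
    have hd := orderOf_dvd_of_pow_eq_one hx
    rcases he12 with h | h
    · rw [h, mul_one] at hd
      rcases (Nat.dvd_prime Nat.prime_two).1 hd with h1 | h1
      · rw [orderOf_eq_one_iff.1 h1]; exact K.one_mem
      · obtain ⟨y, hy, hy2⟩ := h2
        exact hmem y hy x (by rw [h1, hy2])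
    · rw [h, show 2 * 2 = 2 ^ 2 from rfl] at hd
      obtain ⟨k, hk, hk2⟩ := (Nat.dvd_prime_pow Nat.prime_two).1 hd
      have hz1 : z ≠ 1 := by
        intro hz
        rw [he, hz, orderOf_one] at h
        exact absurd h (by decide)
      interval_cases k
      · rw [pow_zero] at hk2
        rw [orderOf_eq_one_iff.1 hk2]; exact K.one_mem
      · obtain ⟨y, hy, hy2⟩ := h2
        exact hmem y hy x (by rw [hk2, hy2]; rfl)
      · obtain ⟨y, hy, hy2⟩ := h4 hz1
        exact hmem y hy x (by rw [hk2, hy2]; rfl)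
  set C : Subgroup G := Subgroup.centralizer (K : Set G) with hC
  have hCm : ∀ x, x ∈ C ↔ ∀ y ∈ K, y * x = x * y := by
    intro x
    rw [hC, Subgroup.mem_centralizer_iff]
    rfl
  have hCK : ∀ x ∈ C, x ∈ K → x = 1 ∨ x = z := by
    intro x hxC hxK
    exact (hcen x hxK).1 fun y hy => ((hCm x).1 hxC y hy).symm
  have hzC : z ∈ C := (hCm z).2 fun y hy => (((hcen z hzK).2 (Or.inr rfl)) y hy).symm
  set N : Subgroup C := K.subgroupOf C with hN
  have hNm : ∀ x : C, x ∈ N ↔ (x : G) ∈ K := fun x => Subgroup.mem_subgroupOf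
  have hNcomm : ∀ n ∈ N, ∀ c : C, c * n = n * c := by
    intro n hn c
    apply Subtype.ext
    exact ((hCm c).1 c.2 n ((hNm n).1 hn)).symm
  have hNnor : N.Normal := by
    refine ⟨fun n hn c => ?_⟩
    rw [hNcomm n hn c, mul_inv_cancel_right]
    exact hn
  have hNe : ∀ n ∈ N, n ^ e = 1 := by
    intro n hn
    apply Subtype.ext
    change (n : G) ^ e = 1
    rcases hCK n n.2 ((hNm n).1 hn) with h | h
    · rw [h, one_pow]
    · rw [h, he, pow_orderOf_eq_one]
  have hNz : N = zpowers (⟨z, hzC⟩ : C) := by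
    apply le_antisymm
    · intro n hn
      rcases hCK n n.2 ((hNm n).1 hn) with h | h
      · have : n = 1 := Subtype.ext h
        rw [this]; exact one_mem _
      · have : n = ⟨z, hzC⟩ := Subtype.ext h
        rw [this]; exact mem_zpowers _
    · rw [zpowers_le, hNm]
      exact hzK
  have hNcard : Nat.card N = e := by
    rw [hNz, Nat.card_zpowers, he, ← Subgroup.orderOf_coe]
  have hodd : Odd N.index := by
    rw [← Nat.not_even_iff_odd, even_iff_two_dvd]
    intro hd
    rw [Subgroup.index_eq_card] at hd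
    obtain ⟨q, hq⟩ := exists_prime_orderOf_dvd_card' 2 hd
    obtain ⟨c, rfl⟩ := QuotientGroup.mk_surjective q
    have h1 : c ^ 2 ∈ N := by
      rw [← QuotientGroup.eq_one_iff, QuotientGroup.mk_pow, ← hq, pow_orderOf_eq_one]
    have h3 : (c : G) ∈ K := by
      apply hsmall
      rw [pow_mul]
      exact congrArg Subtype.val (hNe _ h1)
    have h5 : (c : C ⧸ N) = 1 := by
      rw [QuotientGroup.eq_one_iff]; exact (hNm c).2 h3
    rw [h5, orderOf_one] at hq
    exact absurd hq (by decide)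
  have hcop : Nat.Coprime (Nat.card N) N.index := by
    rw [hNcard]
    exact Nat.Coprime.coprime_dvd_left he2 ((Nat.coprime_two_left).2 hodd)
  obtain ⟨H₀, hH₀⟩ := Subgroup.exists_right_complement'_of_coprime hcop
  set m := Nat.card H₀ with hm
  have hmi : N.index = m := hH₀.symm.index_eq_card
  rw [hmi] at hodd hcop
  have hCcard : Nat.card C = e * m := by
    rw [← hNcard, ← hmi, mul_comm, Subgroup.index_mul_card]
  -- decomposition of `C`
  have hdec : ∀ c ∈ C, ∃ n ∈ K, n ∈ C ∧ n ^ e = 1 ∧ ∃ h : C, h ∈ H₀ ∧ c = n * h := by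
    intro c hc
    have h1 : (⟨c, hc⟩ : C) ∈ N ⊔ H₀ := by
      rw [hH₀.sup_eq_top]; trivial
    rw [Subgroup.mem_sup_of_normal_left] at h1
    obtain ⟨n, hn, h, hh, hnh⟩ := h1
    refine ⟨n, (hNm n).1 hn, n.2, congrArg Subtype.val (hNe n hn), h, hh, ?_⟩
    exact (congrArg Subtype.val hnh).symm
  have hHm : ∀ h ∈ H₀, (h : G) ^ m = 1 := by
    intro h hh
    have h1 : (⟨h, hh⟩ : H₀) ^ Nat.card H₀ = 1 := pow_card_eq_one'
    exact congrArg (fun x : H₀ => ((x : C) : G)) h1
  refine ⟨H₀.map C.subtype, ?_, ?_, ?_, ?_, ?_⟩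
  · -- characteristic
    rw [Subgroup.characteristic_iff_map_le]
    rintro φ _ ⟨_, ⟨x, hx, rfl⟩, rfl⟩
    have hφC : φ (x : G) ∈ C := by
      rw [hCm]
      intro y hy
      obtain ⟨w, rfl⟩ := φ.surjective y
      have hw : w ∈ K := by
        have h := (Subgroup.characteristic_iff_comap_eq.1 hKc) φ
        rw [← h]
        exact hy
      rw [← map_mul, ← map_mul, ((hCm x).1 x.2) w hw]
    obtain ⟨n, hnK, hnC, hne, h, hh, hnh⟩ := hdec _ hφC
    have h1 : (φ (x : G)) ^ m = 1 := by rw [← map_pow, hHm x hx, map_one]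
    have hcomm : Commute n (h : G) := by
      exact (hCm h).1 h.2 n hnK
    rw [hnh, hcomm.mul_pow, hHm h hh, mul_one] at h1
    have h3 : n = 1 := by
      have h5 : orderOf n ∣ m := orderOf_dvd_of_pow_eq_one h1
      have h6 : orderOf n ∣ e := orderOf_dvd_of_pow_eq_one hne
      have h7 : orderOf n ∣ 1 := by
        rw [← hNcard] at h6
        have := Nat.dvd_gcd h6 h5
        rwa [hcop] at this
      exact orderOf_eq_one_iff.1 (Nat.dvd_one.1 h7)
    refine ⟨h, hh, ?_⟩
    rw [h3, one_mul] at hnh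
    exact hnh.symm
  · -- trivial intersection
    rw [eq_bot_iff]
    rintro _ ⟨⟨x, hx, rfl⟩, hK⟩
    have h1 : x ∈ N ⊓ H₀ := ⟨(hNm x).2 hK, hx⟩
    rw [hH₀.isCompl.inf_eq_bot] at h1
    rw [Subgroup.mem_bot] at h1 ⊢
    rw [h1]; rfl
  · -- product
    rw [eq_top_iff]
    intro g _
    obtain ⟨k, hk, hgk⟩ := hS g
    set h := g * k with hh
    have h1 : h ^ 2 ∈ C := by
      rw [hCm]
      intro y hy
      exact (hgk y hy).symm
    have h3 : h ^ m ∈ K := by
      apply hsmall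
      have h5 : (⟨h ^ 2, h1⟩ : C) ^ Nat.card C = 1 := pow_card_eq_one'
      have h6 : (h ^ 2) ^ Nat.card C = 1 := congrArg Subtype.val h5
      rw [hCcard] at h6
      rw [← pow_mul, ← h6, ← pow_mul]
      congr 1
      ring
    have h5 : h ^ (m + 1) ∈ C := by
      obtain ⟨j, hj⟩ := hodd
      rw [hj, show 2 * j + 1 + 1 = 2 * (j + 1) by ring, pow_mul]
      exact C.pow_mem h1 _
    have hCle : C ≤ H₀.map C.subtype ⊔ K := by
      intro c hc
      obtain ⟨n, hnK, -, -, w, hw, hnw⟩ := hdec c hc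
      rw [hnw]
      refine mul_mem ((le_sup_right : K ≤ H₀.map C.subtype ⊔ K) hnK)
        ((le_sup_left : H₀.map C.subtype ≤ H₀.map C.subtype ⊔ K) ⟨w, hw, rfl⟩)
    have h6 : g = h ^ (m + 1) * (h ^ m)⁻¹ * k⁻¹ := by
      rw [pow_succ', mul_inv_cancel_right, hh, mul_inv_cancel_right]
    rw [h6]
    refine mul_mem (mul_mem (hCle h5) (inv_mem ((le_sup_right : K ≤ H₀.map C.subtype ⊔ K) h3)))
      (inv_mem ((le_sup_right : K ≤ H₀.map C.subtype ⊔ K) hk))
  · -- coprime
    have hcH : Nat.card (H₀.map C.subtype) = m := by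
      rw [Subgroup.card_map_of_injective C.subtype_injective]
    rw [hcH]
    apply Nat.Coprime.symm
    rw [Nat.coprime_iff_gcd_eq_one, ← Nat.dvd_one]
    by_contra hne
    obtain ⟨p, hp, hpd⟩ := Nat.exists_prime_and_dvd (fun h => hne (Nat.dvd_one.2 h))
    have := Fact.mk hp
    obtain ⟨x, hx⟩ := exists_prime_orderOf_dvd_card' p (hpd.trans (Nat.gcd_dvd_right _ _) : p ∣ Nat.card H₀)
    obtain ⟨y, hy⟩ := exists_prime_orderOf_dvd_card' p (hpd.trans (Nat.gcd_dvd_left _ _) : p ∣ Nat.card K)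
    have hx' : orderOf ((x : C) : G) = p := by
      rw [Subgroup.orderOf_coe, Subgroup.orderOf_coe, hx]
    have hy' : orderOf (y : G) = p := by
      rw [Subgroup.orderOf_coe, hy]
    have hxK : ((x : C) : G) ∈ K := hmem y y.2 _ (by rw [hx', hy'])
    have h1 : (x : C) ∈ N ⊓ H₀ := ⟨(hNm x).2 hxK, x.2⟩
    rw [hH₀.isCompl.inf_eq_bot, Subgroup.mem_bot] at h1
    rw [h1] at hx'
    rw [OneMemClass.coe_one, orderOf_one] at hx'
    exact hp.one_lt.ne hx'
  · rw [Subgroup.card_map_of_injective C.subtype_injective]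
    exact hodd

/-- transport along `K ≃* L` -/
theorem gen' {G : Type*} [Group G] [Finite G] (hH : Cfsg.Agent.H486.Hg.Homog G)
    (K : Subgroup G) (hKc : K.Characteristic) {L : Type*} [Group L] (e : K ≃* L) (z : L) (hz2 : z ^ 2 = 1)
    (hcen : ∀ x : L, (∀ y, x * y = y * x) ↔ (x = 1 ∨ x = z))
    (h2 : ∃ x : L, orderOf x = 2) (h4 : z ≠ 1 → ∃ x : L, orderOf x = 4)
    (hS : ∀ α : MulAut L, ∃ l, (α * MulAut.conj l) * (α * MulAut.conj l) = 1) :
    ∃ H : Subgroup G, H.Characteristic ∧ H ⊓ K = ⊥ ∧ H ⊔ K = ⊤ ∧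
      (Nat.card H).Coprime (Nat.card K) ∧ Odd (Nat.card H) := by
  have hKn : K.Normal := @Subgroup.normal_of_characteristic _ _ K hKc
  apply gen (exists_aut hH) K hKc (e.symm z : K) (e.symm z).2
  · rw [← Subgroup.coe_pow, ← map_pow, hz2, map_one]; rfl
  · intro x hx
    constructor
    · intro h
      have h1 := (hcen (e ⟨x, hx⟩)).1 (by
        intro y
        obtain ⟨y, rfl⟩ := e.surjective y
        rw [← map_mul, ← map_mul]
        congr 1
        exact Subtype.ext (h y y.2))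
      rcases h1 with h1 | h1
      · left
        rw [map_eq_one_iff e e.injective] at h1
        exact congrArg Subtype.val h1
      · right
        rw [← h1, e.symm_apply_apply]
    · intro h y hy
      have h1 : e ⟨x, hx⟩ = 1 ∨ e ⟨x, hx⟩ = z := by
        rcases h with h | h
        · left
          rw [map_eq_one_iff e e.injective]
          exact Subtype.ext h
        · right
          have h3 : (⟨x, hx⟩ : K) = e.symm z := Subtype.ext h
          rw [h3, e.apply_symm_apply]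
      have h3 := (hcen (e ⟨x, hx⟩)).2 h1 (e ⟨y, hy⟩)
      rw [← map_mul, ← map_mul] at h3
      exact congrArg Subtype.val (e.injective h3)
  · obtain ⟨x, hx⟩ := h2
    refine ⟨e.symm x, (e.symm x).2, ?_⟩
    rw [Subgroup.orderOf_coe, MulEquiv.orderOf_eq, hx]
  · intro hz
    obtain ⟨x, hx⟩ := h4 (by
      intro h
      apply hz
      rw [h, map_one]; rfl)
    refine ⟨e.symm x, (e.symm x).2, ?_⟩
    rw [Subgroup.orderOf_coe, MulEquiv.orderOf_eq, hx]
  · intro g
    set α : MulAut L := (MulAut.congr e) (MulAut.conjNormal g : MulAut K) with hα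
    obtain ⟨l, hl⟩ := hS α
    refine ⟨e.symm l, (e.symm l).2, ?_⟩
    intro y hy
    have h1 := DFunLike.congr_fun hl (e ⟨y, hy⟩)
    have h3 : ∀ w : K, (α * MulAut.conj l) (e w) =
        e ((MulAut.conjNormal (g * (e.symm l : K)) : MulAut K) w) := by
      intro w
      have h5 : (MulAut.conj l) (e w) = e ((MulAut.conj (e.symm l)) w) := by
        rw [MulAut.conj_apply, MulAut.conj_apply, map_mul, map_mul, map_inv, e.apply_symm_apply]
      rw [MulAut.mul_apply, h5, hα, MulAut.congr_apply]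
      change e (MulAut.conjNormal g (e.symm (e _))) = _
      rw [e.symm_apply_apply]
      congr 1
      apply Subtype.ext
      simp only [MulAut.conjNormal_apply, MulAut.conj_apply, Subgroup.coe_mul, Subgroup.coe_inv]
      group
    rw [MulAut.mul_apply, h3, h3, MulAut.one_apply] at h1
    have h5 := congrArg Subtype.val (e.injective h1)
    rw [MulAut.conjNormal_apply, MulAut.conjNormal_apply] at h5
    change (g * (e.symm l : G)) * ((g * (e.symm l : G)) * y * (g * (e.symm l : G))⁻¹) *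
      (g * (e.symm l : G))⁻¹ = y at h5
    generalize g * (e.symm l : G) = h at h5
    rw [pow_two]
    calc h * h * y = h * (h * y * h⁻¹) * h⁻¹ * (h * h) := by group
      _ = _ := by rw [h5]

section cases

open Matrix
open Cfsg.Agent.ClassicalGeometry.AutPSL.Root

variable {F : Type*} [Field F]

/-- the element `w` of order 4 -/
def ww : Matrix.SpecialLinearGroup (Fin 2) F := ⟨!![0, -1; 1, 0], by simp [det_fin_two]⟩

theorem ww_sq : (ww : Matrix.SpecialLinearGroup (Fin 2) F) ^ 2 = -1 := by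
  rw [pow_two]
  apply Subtype.ext
  rw [Matrix.SpecialLinearGroup.coe_mul, Matrix.SpecialLinearGroup.coe_neg, Matrix.SpecialLinearGroup.coe_one]
  ext i j
  fin_cases i <;> fin_cases j <;> simp [ww, Matrix.mul_apply, Fin.sum_univ_two]

end cases

theorem split {G : Type*} [Group G] [Finite G] (hH : Cfsg.Agent.H486.Hg.Homog G) (K : Subgroup G)
    (hKc : K.Characteristic)
    (hK : (∃ (F : Type) (_ : Field F) (_ : Fintype F), Fintype.card F = 5 ∧
        Nonempty (K ≃* Matrix.SpecialLinearGroup (Fin 2) F)) ∨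
      ∃ (F : Type) (_ : Field F) (_ : Fintype F), (Fintype.card F = 5 ∨ Fintype.card F = 7) ∧
        Nonempty (K ≃* Matrix.ProjectiveSpecialLinearGroup (Fin 2) F)) :
    ∃ H : Subgroup G, H.Characteristic ∧ H ⊓ K = ⊥ ∧ H ⊔ K = ⊤ ∧
      (Nat.card H).Coprime (Nat.card K) ∧ Odd (Nat.card H) := by
  have htwo : ∀ (F : Type) [Field F] [Fintype F], (Fintype.card F = 5 ∨ Fintype.card F = 7) → (2 : F) ≠ 0 := by
    intro F _ _ hF h
    obtain ⟨p, hp5, hpp, hF⟩ : ∃ p : ℕ, (p = 5 ∨ p = 7) ∧ p.Prime ∧ Fintype.card F = p := by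
      rcases hF with h | h
      · exact ⟨5, Or.inl rfl, by norm_num, h⟩
      · exact ⟨7, Or.inr rfl, by norm_num, h⟩
    have := Fact.mk hpp
    have : CharP F p := charP_of_card_eq_prime hF
    have h3 : ((2 : ℕ) : F) = 0 := by exact_mod_cast h
    rw [CharP.cast_eq_zero_iff F p] at h3
    have := Nat.le_of_dvd (by norm_num) h3
    rcases hp5 with h | h <;> omega
  rcases hK with ⟨F, _, _, hF, ⟨e⟩⟩ | ⟨F, _, _, hF, ⟨e⟩⟩
  · have h2 := htwo F (Or.inl hF)
    have h1 := Cfsg.Agent.ClassicalGeometry.PSL2Basic.neg_one_ne_one_SL2 h2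
    refine gen' hH K hKc e (-1) (by rw [neg_sq, one_pow]) ?_ ⟨-1, ?_⟩ (fun _ => ⟨ww, ?_⟩) ?_
    · intro x
      rw [← Cfsg.Agent.LFourA.AutTwo.mem_center_iff' h2, Subgroup.mem_center_iff]
      exact ⟨fun h y => (h y).symm, fun h y => (h y).symm⟩
    · exact orderOf_eq_prime (by rw [neg_sq, one_pow]) h1
    · have h3 : orderOf (ww : Matrix.SpecialLinearGroup (Fin 2) F) = 2 ^ (1 + 1) := by
        apply orderOf_eq_prime_pow
        · rw [pow_one, ww_sq]; exact h1
        · rw [show 2 ^ (1 + 1) = 2 * 2 from rfl, pow_mul, ww_sq, neg_sq, one_pow]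
      rw [h3]
      norm_num
    · intro α
      have := Fact.mk (by norm_num : Nat.Prime 5)
      exact Cfsg.Agent.H999.HgSplitA.sl_sq hF (by decide) α
  · have h2 := htwo F hF
    have h1 := Cfsg.Agent.ClassicalGeometry.PSL2Basic.neg_one_ne_one_SL2 h2
    obtain ⟨p, hp5, hpp, hFp⟩ : ∃ p : ℕ, (p = 5 ∨ p = 7) ∧ p.Prime ∧ Fintype.card F = p := by
      rcases hF with h | h
      · exact ⟨5, Or.inl rfl, by norm_num, h⟩
      · exact ⟨7, Or.inr rfl, by norm_num, h⟩
    have := Fact.mk hpp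
    refine gen' hH K hKc e 1 (one_pow _) ?_ ⟨Cfsg.Agent.ClassicalGeometry.AutPSL.Root.pr ww, ?_⟩ (fun h => absurd rfl h) ?_
    · intro x
      rw [or_self]
      refine ⟨fun h => Cfsg.Agent.Ree.ReducePSL.psl_center (by omega) x fun y => (h y).symm, ?_⟩
      rintro rfl y
      rw [one_mul, mul_one]
    · apply orderOf_eq_prime
      · rw [← map_pow, ww_sq, Cfsg.Agent.ClassicalGeometry.AutPSL.Root.pr_eq_one_iff, Cfsg.Agent.LFourA.AutTwo.mem_center_iff' h2]
        exact Or.inr rfl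
      · rw [Ne, Cfsg.Agent.ClassicalGeometry.AutPSL.Root.pr_eq_one_iff, Cfsg.Agent.LFourA.AutTwo.mem_center_iff' h2]
        rintro (h | h)
        · apply h1
          rw [← ww_sq, h, one_pow]
        · apply h1
          rw [← ww_sq, h, neg_sq, one_pow]
    · exact Cfsg.Agent.H999.HgSplitA.psl_sq hFp

end Cfsg.Agent.H999.HgSplit
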