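import Cfsg.Agent.RuD.Letters
import Cfsg.Agent.H999.RuRotData

/-!
# The Rudvalis group: the centraliser of an element of order 29 has order at most 58 (helper999)

In the model `RuOrder.H` on 4060 points `ρ` rotates the blocks of 29 points. An element commuting with `ρ` maps the
point `0` into the blocks 0 and 107, and if it fixes `0` it is trivial.
-/

set_option autoImplicit false
set_option maxRecDepth 100000
set_option exponentiation.threshold 5000

namespace Cfsg.Agent.H999.RuTwentyNine

open Cfsg.Agent.Lib Cfsg.Agent.Lib.BitNet Cfsg.Agent.SporadicB Cfsg.Agent.SporadicB.RuData Cfsg.Agent.SporadicB.RuOrder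
open Cfsg.Agent.SporRec.R3.Kernel Cfsg.Agent.RuD.Letters Cfsg.Agent.H999.RuRotData
open Cfsg.Agent.Lib.BitNetSimple (force force_eq tb tb_eq)

theorem okR : okNet 4060 nR = true := by decide +kernel
theorem invR : invCheck 12 row nR = true := by decide +kernel

/-- the rotation -/
def rho : RuOrder.H := el nR okR invR

/-- rotation of the number `v` by `i` -/
def rot (i v : ℕ) : ℕ := Nat.add (Nat.mul 29 (Nat.div v 29)) (Nat.mod (Nat.add (Nat.mod v 29) i) 29)

theorem rot_def (i v : ℕ) : rot i v = 29 * (v / 29) + (v % 29 + i) % 29 := rfl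

theorem chk1a : allB (fun v => Nat.beq (appK nR v) (rot 1 v)) 2030 = true := by decide +kernel

theorem chk1b : allB (fun v => Nat.beq (appK nR (Nat.add 2030 v)) (rot 1 (Nat.add 2030 v))) 2030 = true := by
  decide +kernel

theorem chk1 : allB (fun v => Nat.beq (appK nR v) (rot 1 v)) 4060 = true := by
  refine (allB_iff _ _).2 fun v hv => ?_
  by_cases h : v < 2030
  · exact (allB_iff _ _).1 chk1a v h
  · have h1 := (allB_iff _ _).1 chk1b (v - 2030) (by omega)
    have h2 : Nat.add 2030 (v - 2030) = v := by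
      rw [Nat.add_eq]
      omega
    rwa [h2] at h1

theorem rho_apply (v : Fin 4060) : ((rho : Equiv.Perm (Fin 4060)) v : ℕ) = rot 1 v := by
  have h := (allB_iff _ _).1 chk1 v v.2
  have h1 := Nat.eq_of_beq_eq_true h
  rw [appK_eq] at h1
  exact h1

theorem rot_add (i v : ℕ) : rot 1 (rot i v) = rot (i + 1) v := by
  rw [rot_def, rot_def, rot_def]
  have h1 : (29 * (v / 29) + (v % 29 + i) % 29) / 29 = v / 29 := by omega
  have h2 : (29 * (v / 29) + (v % 29 + i) % 29) % 29 = (v % 29 + i) % 29 := by omega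
  rw [h1, h2]
  omega

theorem rho_pow_apply (i : ℕ) (v : Fin 4060) : (((rho ^ i : RuOrder.H) : Equiv.Perm (Fin 4060)) v : ℕ) = rot i v := by
  induction i with
  | zero =>
    rw [pow_zero, rot_def]
    change (v : ℕ) = _
    omega
  | succ i ih =>
    rw [pow_succ']
    change ((rho : Equiv.Perm (Fin 4060)) (((rho ^ i : RuOrder.H) : Equiv.Perm (Fin 4060)) v) : ℕ) = _
    rw [rho_apply, ih, rot_add]

theorem rho_pow : rho ^ 29 = 1 := by
  apply Subtype.ext
  apply Equiv.ext
  intro v
  apply Fin.ext
  rw [rho_pow_apply, rot_def]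
  change _ = (v : ℕ)
  omega

theorem rho_ne_one : rho ≠ 1 := by
  intro h
  have h1 := rho_apply ⟨0, by norm_num⟩
  rw [h] at h1
  exact absurd h1 (by decide)

/-- some power of the rotation up to the 14th distinguishes the points `v` and `0` -/
noncomputable def mis (v : ℕ) : Bool :=
  force (row v) fun r => force (row 0) fun r0 =>
    Bool.rec true false (allL (fun i => Bool.rec (Bool.rec true false (tb r0 i)) (tb r0 i) (tb r (rot i v)))
      [1, 2, 3, 4, 5, 6, 7, 8, 9, 10, 11, 12, 13, 14])

theorem chk2 : allB (fun v => Bool.rec (Bool.rec (mis v) true (Nat.beq (Nat.div v 29) 107)) true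
    (Nat.beq (Nat.div v 29) 0)) 4060 = true := by decide +kernel

theorem chk2' (v : Fin 4060) (h : ∀ i : ℕ, (row v).testBit (rot i v) = (row 0).testBit (rot i 0)) :
    (v : ℕ) / 29 = 0 ∨ (v : ℕ) / 29 = 107 := by
  have h1 := (allB_iff _ _).1 chk2 v v.2
  by_contra hcon
  push Not at hcon
  have h2 : Nat.beq (Nat.div (v : ℕ) 29) 0 = false := by
    rw [Bool.eq_false_iff]
    exact fun h3 => hcon.1 (Nat.eq_of_beq_eq_true h3)
  have h3 : Nat.beq (Nat.div (v : ℕ) 29) 107 = false := by
    rw [Bool.eq_false_iff]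
    exact fun h3 => hcon.2 (Nat.eq_of_beq_eq_true h3)
  rw [h2, h3] at h1
  have h4 : mis v = true := h1
  rw [mis, force_eq, force_eq] at h4
  have h5 : allL (fun i => Bool.rec (motive := fun _ => Bool) (Bool.rec (motive := fun _ => Bool) true false (tb (row 0) i))
      (tb (row 0) i) (tb (row v) (rot i v)))
      [1, 2, 3, 4, 5, 6, 7, 8, 9, 10, 11, 12, 13, 14] = true := by
    rw [allL_iff]
    intro i hi
    have hi29 : rot i 0 = i := by
      simp only [List.mem_cons, List.not_mem_nil, or_false] at hi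
      rw [rot_def]
      omega
    rw [tb_eq, tb_eq, h i, hi29]
    cases (row 0).testBit i <;> rfl
  rw [h5] at h4
  exact absurd h4 (by simp)

/-- evaluate a list of numbers first -/
noncomputable def frc (g : ℕ → ℕ) : List ℕ → (List ℕ → Bool) → Bool :=
  List.rec (motive := fun _ => (List ℕ → Bool) → Bool) (fun f => f [])
    (fun k _ ih f => ih fun l => force (g k) fun m => f (m :: l))

theorem frc_eq (g : ℕ → ℕ) : ∀ (ks : List ℕ) (f : List ℕ → Bool), frc g ks f = f (ks.map g)
  | [], f => rfl
  | k :: ks, f => by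
    have e : frc g (k :: ks) f = frc g ks fun l => force (g k) fun m => f (m :: l) := rfl
    rw [e, frc_eq g ks, force_eq]
    rfl

theorem chk3 : frc row [0, 1, 2, 3, 4, 5, 6, 7, 8, 9, 10, 11, 12, 13, 14, 15, 16, 17, 18, 19, 20, 21, 22, 23, 24, 25, 26,
    27, 28] (fun l => sep l (Nat.sub (Nat.pow 2 4060) 1)) = true := by decide +kernel

end Cfsg.Agent.H999.RuTwentyNine
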