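import Cfsg.Agent.H966.SporCrit
import Cfsg.Agent.H568.RowCrit
import Cfsg.Agent.BpSpor.RowAll

/-!
# Rows of S4329 for groups with `BpSpor.Row.Dat` (helper999)

`row_of_dat`: only the primes whose square divides the order need an argument, and for them it is enough that for
every element `s` of order `p` there is a prime `l` such that no element of order `l` commutes with `s`, and
`l ∤ p ^ k - 1` for `p ^ k` dividing the order.
-/

set_option autoImplicit false

namespace Cfsg.Agent.H999.SpRow

open Subgroup Cfsg Cfsg.Agent.H568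

universe u

/-- the condition on the primes `l`, `p` -/
def Cop (N p l : ℕ) : Prop := ∀ k : ℕ, k ≠ 0 → p ^ k ∣ N → ¬ l ∣ p ^ k - 1

theorem cop_of {N p l m : ℕ} (h1 : ¬ p ^ (m + 1) ∣ N) (h2 : ∀ k ∈ List.range (m + 1), k ≠ 0 → ¬ l ∣ p ^ k - 1) :
    Cop N p l := by
  intro k hk hkN
  have h3 : k < m + 1 := by
    by_contra hge
    exact h1 ((pow_dvd_pow p (not_lt.1 hge)).trans hkN)
  exact h2 k (List.mem_range.2 h3) hk

theorem not_dvd_of_no_comm {K : Type*} [Group K] [Finite K] {s : K} {l : ℕ} (hl : l.Prime)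
    (h : ∀ x : K, orderOf x = l → x * s ≠ s * x) : ¬ l ∣ Nat.card ↥(centralizer ({s} : Set K)) := by
  intro hd
  have := Fact.mk hl
  obtain ⟨x, hx⟩ := exists_prime_orderOf_dvd_card' l hd
  refine h x ?_ (mem_centralizer_singleton_iff.1 x.2)
  rw [Subgroup.orderOf_coe, hx]

theorem row_of_dat {K : Type u} [Group K] {N : ℕ} (D : BpSpor.Dat K N) (h4 : 4 ∣ N) (hN : N ≠ 0) {p : ℕ}
    [hp : Fact p.Prime] (hp2 : p ≠ 2)
    (h : p ^ 2 ∣ N → ∀ s : K, orderOf s = p → ∃ l : ℕ, l.Prime ∧ l ∣ N ∧ l ≠ p ∧ Cop N p l ∧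
      ∀ x : K, orderOf x = l → x * s ≠ s * x) : Row p K := by
  have hs := D.simple
  have hfin : Finite K := Nat.finite_of_card_ne_zero (by rw [D.card]; exact hN)
  have hZ : center K = ⊥ := BpSpor.center_eq_bot_of_card hs (by rw [D.card]; exact h4)
  have hna : ¬ IsMulCommutative K := by
    intro hc
    have h1 : center K = ⊤ := by
      rw [eq_top_iff]
      intro x _
      rw [mem_center_iff]
      intro y
      exact hc.is_comm.comm y x
    rw [hZ] at h1
    have h2 : Nat.card K = 1 := by
      rw [← Subgroup.card_top, ← h1, Subgroup.card_bot]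
    rw [D.card] at h2
    rw [h2] at h4
    exact absurd h4 (by decide)
  by_cases h2 : p ^ 2 ∣ N
  · refine H966.SporCrit.row_of_primes hZ (fun a ha => D.inn p hp.1 hp2 a ha) fun s hs' => ?_
    obtain ⟨l, hl, h5, h6, h7, h8⟩ := h h2 s hs'
    exact ⟨l, hl, by rw [D.card]; exact h5, h6, by rw [D.card]; exact h7, not_dvd_of_no_comm hl h8⟩
  · intro a ha
    obtain ⟨s, hs'⟩ := D.inn p hp.1 hp2 a ha
    have hpK : p ∣ Nat.card K := by
      have h5 : orderOf s = p := by
        rw [← ha, hs']
        symm
        refine orderOf_injective (MulAut.conj : K →* MulAut K) ?_ s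
        rw [← MonoidHom.ker_eq_bot_iff, ← hZ]
        ext x
        rw [MonoidHom.mem_ker, mem_center_iff]
        constructor
        · intro h y
          have h1 : MulAut.conj x y = y := by rw [h]; rfl
          rw [MulAut.conj_apply, mul_inv_eq_iff_eq_mul] at h1
          exact h1.symm
        · intro h
          ext y
          rw [MulAut.conj_apply, ← h y, mul_inv_cancel_right]
          rfl
      rw [← h5]
      exact orderOf_dvd_natCard s
    obtain ⟨P⟩ : Nonempty (Sylow p K) := inferInstance
    have hP : Nat.card (P : Subgroup K) = p := by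
      obtain ⟨k, hk⟩ := IsPGroup.iff_card.1 P.isPGroup'
      have h5 : p ∣ Nat.card (P : Subgroup K) := P.dvd_card_of_dvd_card hpK
      have h6 : p ^ k ∣ N := by
        rw [← hk, ← D.card]; exact Subgroup.card_subgroup_dvd_card _
      have h7 : k < 2 := by
        by_contra hge
        exact h2 ((pow_dvd_pow p (not_lt.1 hge)).trans h6)
      interval_cases k
      · rw [pow_zero] at hk
        rw [hk, Nat.dvd_one] at h5
        exact absurd h5 hp.1.ne_one
      · rw [hk, pow_one]
    have hcyc : IsCyclic ↥(P : Subgroup K) := isCyclic_of_prime_card hP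
    obtain ⟨x, hx⟩ := exists_noNorm_of_cyclic hna hpK P hcyc
    exact ⟨x, hx.not_dvd, avoid_inner hZ ha hs' hx⟩

end Cfsg.Agent.H999.SpRow
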